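import Cfsg.Agent.Lib.Helper37.OmSyl.A0

set_option autoImplicit false

/-! # OmSyl farm (helper58): the 2-adic pieces A1-A5 (helper37) -/

namespace Cfsg.Agent.Lib.Helper37.OmSyl

open Cfsg.Agent.Lib.Helper23.WrSyl

/-- [A1] -/
theorem val_odd {q : ℕ} (hq : Odd q) (h1 : 1 < q) (m : ℕ) :
    (2 * q ^ (m ^ 2) * ∏ i ∈ Finset.range m, (q ^ (2 * (i + 1)) - 1)).factorization 2 =
      m * (q ^ 2 - 1).factorization 2 + (m.factorial).factorization 2 + 1 := by
  have := val_shape hq h1 (m ^ 2) m 1 one_ne_zero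
  rw [mul_one] at this
  rw [this]
  simp
  omega

/-- [A2] -/
theorem val_plus_one {q : ℕ} (hq : Odd q) (h1 : 1 < q) (m : ℕ) (hm : 1 ≤ m)
    (h : q ^ m % 4 = 1) :
    (2 * q ^ (m * (m - 1)) * (q ^ m - 1) *
        ∏ i ∈ Finset.range (m - 1), (q ^ (2 * (i + 1)) - 1)).factorization 2 =
      m * (q ^ 2 - 1).factorization 2 + (m.factorial).factorization 2 + 0 := by
  obtain ⟨n, rfl⟩ : ∃ n, m = n + 1 := ⟨m - 1, by omega⟩
  have hX : q ^ (n + 1) - 1 ≠ 0 := by
    have : 1 < q ^ (n + 1) := Nat.one_lt_pow (by omega) h1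
    omega
  rw [val_shape hq h1 _ _ _ hX, val_factorial_succ, Nat.add_sub_cancel, add_mul, one_mul]
  have key : 1 + (q ^ (n + 1) - 1).factorization 2 =
      (q ^ 2 - 1).factorization 2 + (n + 1).factorization 2 := by
    have h4 : q % 4 = 1 ∨ q % 4 = 3 := by
      obtain ⟨c, hc⟩ := hq
      omega
    rcases h4 with h4 | h4
    · rw [val_pow_one h4 h1, val_sq_of_one h4 h1]
      omega
    · rcases Nat.even_or_odd' (n + 1) with ⟨k, hk | hk⟩
      · obtain ⟨j, rfl⟩ : ∃ j, k = j + 1 := ⟨k - 1, by omega⟩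
        rw [hk, val_even_pow hq h1, Nat.factorization_mul (by norm_num) (by omega)]
        simp only [Finsupp.coe_add, Pi.add_apply, Nat.prime_two.factorization_self]
        omega
      · rw [hk, pow_mod_four_odd h4] at h
        omega
  omega

/-- [A3] -/
theorem val_plus_three {q : ℕ} (hq : Odd q) (h1 : 1 < q) (m : ℕ) (hm : 1 ≤ m)
    (h : q ^ m % 4 = 3) :
    (2 * q ^ (m * (m - 1)) * (q ^ m - 1) *
        ∏ i ∈ Finset.range (m - 1), (q ^ (2 * (i + 1)) - 1)).factorization 2 =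
      (m - 1) * (q ^ 2 - 1).factorization 2 + ((m - 1).factorial).factorization 2 + 2 := by
  have hX : q ^ m - 1 ≠ 0 := by omega
  rw [val_shape hq h1 _ _ _ hX, val_two_mod_four (x := q ^ m - 1) (by omega)]
  omega

/-- [A4] -/
theorem val_minus_three {q : ℕ} (hq : Odd q) (h1 : 1 < q) (m : ℕ) (hm : 1 ≤ m)
    (h : q ^ m % 4 = 3) :
    (2 * q ^ (m * (m - 1)) * (q ^ m + 1) *
        ∏ i ∈ Finset.range (m - 1), (q ^ (2 * (i + 1)) - 1)).factorization 2 =
      m * (q ^ 2 - 1).factorization 2 + (m.factorial).factorization 2 + 0 := by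
  obtain ⟨n, rfl⟩ : ∃ n, m = n + 1 := ⟨m - 1, by omega⟩
  have hX : q ^ (n + 1) + 1 ≠ 0 := by omega
  rw [val_shape hq h1 _ _ _ hX, val_factorial_succ, Nat.add_sub_cancel, add_mul, one_mul]
  have e1 : (q ^ (n + 1) - 1).factorization 2 = 1 := val_two_mod_four (by omega)
  have hY : q ^ (n + 1) - 1 ≠ 0 := by omega
  have e2 : q ^ (2 * (n + 1)) - 1 = (q ^ (n + 1) - 1) * (q ^ (n + 1) + 1) := by
    have h0 : 1 ≤ q ^ (n + 1) := by omega
    obtain ⟨t, ht⟩ : ∃ t, q ^ (n + 1) = t + 1 := ⟨q ^ (n + 1) - 1, by omega⟩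
    have : q ^ (2 * (n + 1)) = (t + 1) * (t + 1) := by
      rw [← ht]; ring
    rw [this, ht, Nat.add_sub_cancel]
    have : (t + 1) * (t + 1) = t * (t + 1 + 1) + 1 := by ring
    rw [this, Nat.add_sub_cancel]
  have e3 := val_even_pow hq h1 n
  rw [e2, Nat.factorization_mul hY hX] at e3
  simp only [Finsupp.coe_add, Pi.add_apply, e1] at e3
  omega

/-- [A5] -/
theorem val_minus_one {q : ℕ} (hq : Odd q) (h1 : 1 < q) (m : ℕ) (hm : 1 ≤ m)
    (h : q ^ m % 4 = 1) :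
    (2 * q ^ (m * (m - 1)) * (q ^ m + 1) *
        ∏ i ∈ Finset.range (m - 1), (q ^ (2 * (i + 1)) - 1)).factorization 2 =
      (m - 1) * (q ^ 2 - 1).factorization 2 + ((m - 1).factorial).factorization 2 + 2 := by
  have hX : q ^ m + 1 ≠ 0 := by omega
  rw [val_shape hq h1 _ _ _ hX, val_two_mod_four (x := q ^ m + 1) (by omega)]
  omega

end Cfsg.Agent.Lib.Helper37.OmSyl
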