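import Cfsg.Agent.Lib.Helper23.WrSyl.VBase

set_option autoImplicit false

/-! # OmSyl farm (helper58): common lemmas for the 2-adic pieces A1-A5 (helper37) -/

namespace Cfsg.Agent.Lib.Helper37.OmSyl

open Cfsg.Agent.Lib.Helper23.WrSyl

theorem val_prod {q : ℕ} (hq : Odd q) (h1 : 1 < q) (n : ℕ) :
    (∏ i ∈ Finset.range n, (q ^ (2 * (i + 1)) - 1)).factorization 2 =
      n * (q ^ 2 - 1).factorization 2 + (n.factorial).factorization 2 := by
  have hne : ∀ i ∈ Finset.range n, q ^ (2 * (i + 1)) - 1 ≠ 0 := by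
    intro i _
    have : 1 < q ^ (2 * (i + 1)) := Nat.one_lt_pow (by omega) h1
    omega
  rw [Nat.factorization_prod hne, val_factorial]
  simp only [Finsupp.finsetSum_apply]
  rw [Finset.sum_congr rfl (fun i _ => val_even_pow hq h1 i), Finset.sum_add_distrib]
  simp

theorem prod_ne_zero {q : ℕ} (h1 : 1 < q) (n : ℕ) :
    (∏ i ∈ Finset.range n, (q ^ (2 * (i + 1)) - 1)) ≠ 0 := by
  refine Finset.prod_ne_zero_iff.mpr ?_
  intro i _
  have : 1 < q ^ (2 * (i + 1)) := Nat.one_lt_pow (by omega) h1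
  omega

theorem val_pow_odd {q : ℕ} (hq : Odd q) (k : ℕ) : (q ^ k).factorization 2 = 0 := by
  have hq2 : ¬ 2 ∣ q := by
    obtain ⟨c, hc⟩ := hq
    omega
  rw [Nat.factorization_pow]
  simp [Nat.factorization_eq_zero_of_not_dvd hq2]

/-- the general shape of the orders in A2-A5. -/
theorem val_shape {q : ℕ} (hq : Odd q) (h1 : 1 < q) (k n X : ℕ) (hX : X ≠ 0) :
    (2 * q ^ k * X * ∏ i ∈ Finset.range n, (q ^ (2 * (i + 1)) - 1)).factorization 2 =
      1 + X.factorization 2 + (n * (q ^ 2 - 1).factorization 2 + (n.factorial).factorization 2) := by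
  have hq0 : q ^ k ≠ 0 := pow_ne_zero _ (by omega)
  rw [Nat.factorization_mul (by positivity) (prod_ne_zero h1 n),
    Nat.factorization_mul (by positivity) hX, Nat.factorization_mul (by norm_num) hq0]
  simp only [Finsupp.coe_add, Pi.add_apply]
  rw [val_prod hq h1, val_pow_odd hq, Nat.prime_two.factorization_self]

theorem val_two_mod_four {x : ℕ} (h : x % 4 = 2) : x.factorization 2 = 1 := by
  obtain ⟨c, hc⟩ : ∃ c, x = 2 * (2 * c + 1) := ⟨x / 4, by omega⟩
  rw [hc, Nat.factorization_mul (by norm_num) (by omega)]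
  have h1 : (2 * c + 1).factorization 2 = 0 :=
    Nat.factorization_eq_zero_of_not_dvd (by omega)
  simp [h1, Nat.prime_two.factorization_self]

theorem val_factorial_succ (n : ℕ) :
    ((n + 1).factorial).factorization 2 = (n + 1).factorization 2 + (n.factorial).factorization 2 := by
  rw [Nat.factorial_succ, Nat.factorization_mul (by omega) (Nat.factorial_ne_zero n)]
  simp

theorem pow_mod_four_of_one {q : ℕ} (h : q % 4 = 1) (m : ℕ) : q ^ m % 4 = 1 := by
  rw [Nat.pow_mod, h]; simp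

theorem pow_mod_four_even {q : ℕ} (hq : Odd q) (k : ℕ) : q ^ (2 * k) % 4 = 1 := by
  have h2 : q ^ 2 % 4 = 1 := by
    obtain ⟨c, hc⟩ := hq
    have : q % 4 = 1 ∨ q % 4 = 3 := by omega
    rcases this with h | h <;> rw [Nat.pow_mod, h]
  rw [pow_mul, Nat.pow_mod, h2]; simp

theorem pow_mod_four_odd {q : ℕ} (h : q % 4 = 3) (k : ℕ) : q ^ (2 * k + 1) % 4 = 3 := by
  have hq : Odd q := Nat.odd_iff.mpr (by omega)
  rw [pow_succ, Nat.mul_mod, pow_mod_four_even hq, h]

/-- `v2 (q^2 - 1) = v2 (q - 1) + 1` for `q ≡ 1 mod 4`. -/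
theorem val_sq_of_one {q : ℕ} (h : q % 4 = 1) (h1 : 1 < q) :
    (q ^ 2 - 1).factorization 2 = (q - 1).factorization 2 + 1 := by
  have := val_pow_one h h1 1
  simpa [Nat.prime_two.factorization_self] using this

end Cfsg.Agent.Lib.Helper37.OmSyl
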